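import Cfsg.Agent.H981.Inv.ThData

/-!
# S3938, the row `Th`: kernel checks with the 248-dimensional matrices over `F_3` (helper602)

`wp` has order 19; for the representatives `g` of the classes of elements of order 3, 5, 7 a word `h` with
`(h wp h⁻¹ g) ^ n = 1`, `n = 13` or `31`.
-/

set_option autoImplicit false
set_option Elab.async false

namespace Cfsg.Agent.H602.SprThData

open Cfsg.Agent.Th Cfsg.Agent.Th.MatEngine Cfsg.Agent.Th.Words248 Cfsg.Agent.Th.Gen248
  Cfsg.Agent.ThType.SevenBase Cfsg.Agent.H478.RadThMat Cfsg.Agent.H981.InvThData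

set_option maxRecDepth 100000
set_option maxHeartbeats 400000

/-- `h wp h⁻¹` -/
def cj (h : Wd) : Wd := .mul (.mul h wp) (.inv h)

/-- representatives: 3, 33, 333, 5, 7 -/
def w3 : Wd := .mul (.mul (.mul (.mul (.g .d) (.g .t)) (.g .u)) (.g .d)) (.g .u)
def w33 : Wd := .g .t
def w333 : Wd := .mul (.g .d) (.g .e)
def w5 : Wd := .mul (.mul (.mul (.mul (.g .d) (.g .S)) (.g .u)) (.g .d)) (.g .u)
def w7 : Wd := .g .s

def h3 : Wd := .mul (.g .c) (.g .d)
def h33 : Wd := .mul (.g .s) (.g .e)
def h333 : Wd := .mul (.g .s) (.g .c)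
def h5 : Wd := .mul (.g .S) (.g .t)
def h7 : Wd := .mul (.g .d) (.g .e)

theorem c3 : Nat.beq (powB (evN false (.mul (cj h3) w3)) [true, true, true, true]) idm = true := by decide +kernel
theorem c33 : Nat.beq (powB (evN false (.mul (cj h33) w33)) [true, false, true]) idm = true := by decide +kernel
theorem c333 : Nat.beq (powB (evN false (.mul (cj h333) w333)) [true, true, true, true]) idm = true := by decide +kernel
theorem c5 : Nat.beq (powB (evN false (.mul (cj h5) w5)) [true, true, true, true]) idm = true := by decide +kernel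
theorem c7 : Nat.beq (powB (evN false (.mul (cj h7) w7)) [true, false, true]) idm = true := by decide +kernel

theorem e3 : evG (.mul (cj h3) w3) ^ 31 = 1 := pow_eq_one (rep_word _) 31 [true, true, true, true] rfl c3
theorem e33 : evG (.mul (cj h33) w33) ^ 13 = 1 := pow_eq_one (rep_word _) 13 [true, false, true] rfl c33
theorem e333 : evG (.mul (cj h333) w333) ^ 31 = 1 := pow_eq_one (rep_word _) 31 [true, true, true, true] rfl c333
theorem e5 : evG (.mul (cj h5) w5) ^ 31 = 1 := pow_eq_one (rep_word _) 31 [true, true, true, true] rfl c5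
theorem e7 : evG (.mul (cj h7) w7) ^ 13 = 1 := pow_eq_one (rep_word _) 13 [true, false, true] rfl c7

end Cfsg.Agent.H602.SprThData
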