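import Cfsg.Agent.H609.TH.Expl
import Cfsg.Agent.H609.TH.Link
import Cfsg.Agent.H602.SprThData
import Cfsg.Agent.H981.Inv.ThDataB
import Cfsg.Agent.MonsterX.ThOneClass
import Cfsg.Agent.KFacts.Th.Main
import Cfsg.Agent.ThType.Seven

/-!
# S3938, the row `Th` (helper602)
-/

set_option autoImplicit false
set_option maxRecDepth 100000

namespace Cfsg.Agent.H602.SprTh

open Subgroup Cfsg Cfsg.Agent.H609.TH Cfsg.Agent.Th.Gen248 Cfsg.Agent.H602.SprThData Cfsg.Agent.H981.InvThData
open Cfsg.Agent.ThType.Seven (W rho_W W_mul W_inv W_pow W_one W_eq W_ne rho_injective)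

theorem isTh : Cfsg.IsTh Spor.Th := Cfsg.Agent.Th.Main1700.isTh

theorem card_Th : Nat.card Spor.Th = 90745943887872000 := Cfsg.Agent.Th.Main1700.final.2.1

theorem W_of {x : Spor.Th} (h : Cfsg.Agent.Th.Hom248.rho x = 1) : x = 1 :=
  rho_injective isTh (by rw [h, map_one])

theorem p19 : W wp ^ 19 = 1 := W_of (by rw [map_pow, rho_W, e19])

theorem W_ne_one {x : Wd} (h : Nat.beq (evN false x) (evN false .one) = false) : W x ≠ 1 := by
  rw [← W_one]
  exact W_ne (Cfsg.Agent.Th.Gen248.evG_ne h)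

theorem oc : orderOf (W (.g .c)) = 2 := by
  have : Fact (Nat.Prime 2) := ⟨Nat.prime_two⟩
  exact orderOf_eq_prime (W_of (by rw [map_pow, rho_W, sqc])) (W_ne_one ckc)

theorem p31 : (W wp * W (.g .c)) ^ 31 = 1 := W_of (by rw [map_pow, map_mul, rho_W, rho_W, e31])

theorem o19 : orderOf (W wp) = 19 := by
  have : Fact (Nat.Prime 19) := ⟨by norm_num⟩
  refine orderOf_eq_prime p19 fun h => ?_
  have h1 := p31
  rw [h, one_mul] at h1
  have h2 := orderOf_dvd_of_pow_eq_one h1
  rw [oc] at h2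
  omega

theorem o31 : orderOf (W wp * W (.g .c)) = 31 := by
  have : Fact (Nat.Prime 31) := ⟨by norm_num⟩
  refine orderOf_eq_prime p31 fun h => ?_
  have h1 : W wp = (W (.g .c))⁻¹ := eq_inv_of_mul_eq_one_left h
  have h2 := o19
  rw [h1, orderOf_inv, oc] at h2
  omega

/-- no proper subgroup has order divisible by 19 and by 13 or 31 -/
def Tops : Prop := ∀ R : Subgroup Spor.Th, R ≠ ⊤ → 19 ∣ Nat.card R → 13 ∣ Nat.card R ∨ 31 ∣ Nat.card R → False

/-- representatives of the elements of order 3, 5, 7 -/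
def Reps : Prop :=
  (∀ x : Spor.Th, orderOf x = 3 → ∃ g, g * x * g⁻¹ = W w3 ∨ g * x * g⁻¹ = W w33 ∨ g * x * g⁻¹ = W w333) ∧
  (∀ x : Spor.Th, orderOf x = 5 → ∃ g, g * x * g⁻¹ = W w5) ∧ ∀ x : Spor.Th, orderOf x = 7 → ∃ g, g * x * g⁻¹ = W w7

theorem good_of (hT : Tops) {x y g : Spor.Th} (hx : orderOf x = 19) (hxc : x ∈ closure ({y, g} : Set Spor.Th)) {z : Spor.Th}
    (hz : z ∈ closure ({y, g} : Set Spor.Th)) {n : ℕ} (hn : n = 13 ∨ n = 31) (hzn : orderOf z = n) : GoodI g := by
  refine ⟨y, ?_⟩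
  by_contra hne
  refine hT _ hne ?_ ?_
  · have := Subgroup.orderOf_dvd_natCard _ hxc
    rwa [hx] at this
  · have := Subgroup.orderOf_dvd_natCard _ hz
    rw [hzn] at this
    rcases hn with rfl | rfl
    · exact Or.inl this
    · exact Or.inr this

/-- a representative -/
theorem good_rep (hT : Tops) {h g : Wd} {n m : ℕ} (hn : n = 13 ∨ n = 31) (he : evG (.mul (cj h) g) ^ n = 1)
    (hg : orderOf (W g) = m) (hm : m < 19) : GoodI (W g) := by
  have hcj : W (cj h) = W h * W wp * (W h)⁻¹ := by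
    rw [cj, W_mul, W_mul, W_inv]
  have hx : orderOf (W (cj h)) = 19 := by
    rw [hcj, ← o19]
    exact orderOf_injective (MulAut.conj (W h)).toMonoidHom (MulAut.conj (W h)).injective (W wp)
  have hp : (W (cj h) * W g) ^ n = 1 := by
    apply W_of
    rw [← W_mul, map_pow, rho_W, he]
  have hnp : n.Prime := by rcases hn with rfl | rfl <;> norm_num
  have ho : orderOf (W (cj h) * W g) = n := by
    have := Fact.mk hnp
    refine orderOf_eq_prime hp fun h0 => ?_
    have h1 : W (cj h) = (W g)⁻¹ := eq_inv_of_mul_eq_one_left h0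
    rw [h1, orderOf_inv, hg] at hx
    omega
  exact good_of hT hx (Subgroup.subset_closure (Or.inl rfl))
    (mul_mem (Subgroup.subset_closure (Or.inl rfl)) (Subgroup.subset_closure (Or.inr rfl))) hn ho

theorem conj_to {x y g : Spor.Th} (h : g * x * g⁻¹ = y) (hy : GoodI y) : GoodI x :=
  GoodI.of_conj g (by rw [h]; exact hy)

theorem order_conj {x y g : Spor.Th} (h : g * x * g⁻¹ = y) : orderOf y = orderOf x := by
  rw [← h]
  exact orderOf_injective (MulAut.conj g).toMonoidHom (MulAut.conj g).injective x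

theorem good (hT : Tops) (hR : Reps) (g : Spor.Th) (hg : (orderOf g).Prime) : GoodI g := by
  have hfin : Finite Spor.Th := Nat.finite_of_card_ne_zero (by rw [card_Th]; norm_num)
  have hd : orderOf g ∣ 90745943887872000 := by
    rw [← card_Th]
    exact orderOf_dvd_natCard g
  have hp : orderOf g = 2 ∨ orderOf g = 3 ∨ orderOf g = 5 ∨ orderOf g = 7 ∨ orderOf g = 13 ∨ orderOf g = 19 ∨
      orderOf g = 31 := by
    have h1 : orderOf g ∣ 2 ^ 15 * (3 ^ 10 * (5 ^ 3 * (7 ^ 2 * (13 * (19 * 31))))) := hd.trans (by norm_num)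
    have hpr : ∀ {a : ℕ}, a.Prime → orderOf g ∣ a → orderOf g = a := fun ha h => (Nat.prime_dvd_prime_iff_eq hg ha).1 h
    rcases hg.dvd_mul.1 h1 with h | h
    · exact Or.inl (hpr Nat.prime_two (hg.dvd_of_dvd_pow h))
    rcases hg.dvd_mul.1 h with h | h
    · exact Or.inr (Or.inl (hpr Nat.prime_three (hg.dvd_of_dvd_pow h)))
    rcases hg.dvd_mul.1 h with h | h
    · exact Or.inr (Or.inr (Or.inl (hpr (by norm_num) (hg.dvd_of_dvd_pow h))))
    rcases hg.dvd_mul.1 h with h | h
    · exact Or.inr (Or.inr (Or.inr (Or.inl (hpr (by norm_num) (hg.dvd_of_dvd_pow h)))))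
    rcases hg.dvd_mul.1 h with h | h
    · exact Or.inr (Or.inr (Or.inr (Or.inr (Or.inl (hpr (by norm_num) h)))))
    rcases hg.dvd_mul.1 h with h | h
    · exact Or.inr (Or.inr (Or.inr (Or.inr (Or.inr (Or.inl (hpr (by norm_num) h))))))
    · exact Or.inr (Or.inr (Or.inr (Or.inr (Or.inr (Or.inr (hpr (by norm_num) h))))))
  rcases hp with h | h | h | h | h | h | h
  · obtain ⟨c, hc⟩ := isConj_iff.1 (MonsterX.ThOneClass.oneClass g (W (.g .c)) h oc)
    refine conj_to hc ?_
    exact good_of hT (x := W wp) (y := W wp) o19 (Subgroup.subset_closure (Or.inl rfl))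
      (mul_mem (Subgroup.subset_closure (Or.inl rfl)) (Subgroup.subset_closure (Or.inr rfl))) (Or.inr rfl) o31
  · obtain ⟨c, hc | hc | hc⟩ := hR.1 g h
    · exact conj_to hc (good_rep hT (Or.inr rfl) e3 ((order_conj hc).trans h) (by norm_num))
    · exact conj_to hc (good_rep hT (Or.inl rfl) e33 ((order_conj hc).trans h) (by norm_num))
    · exact conj_to hc (good_rep hT (Or.inr rfl) e333 ((order_conj hc).trans h) (by norm_num))
  · obtain ⟨c, hc⟩ := hR.2.1 g h
    exact conj_to hc (good_rep hT (Or.inr rfl) e5 ((order_conj hc).trans h) (by norm_num))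
  · obtain ⟨c, hc⟩ := hR.2.2 g h
    exact conj_to hc (good_rep hT (Or.inl rfl) e7 ((order_conj hc).trans h) (by norm_num))
  · exact good_of hT (x := W wp) (y := W wp) o19 (Subgroup.subset_closure (Or.inl rfl))
      (Subgroup.subset_closure (Or.inr rfl)) (Or.inl rfl) h
  · exact good_of hT (x := g) (y := W wp * W (.g .c)) h (Subgroup.subset_closure (Or.inr rfl))
      (Subgroup.subset_closure (Or.inl rfl)) (Or.inr rfl) o31
  · exact good_of hT (x := W wp) (y := W wp) o19 (Subgroup.subset_closure (Or.inl rfl))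
      (Subgroup.subset_closure (Or.inr rfl)) (Or.inr rfl) h

theorem spr_model (hT : Tops) (hR : Reps) : H424.Spr.Spr Spor.Th := by
  have hs : IsSimpleGroup Spor.Th := isTh.1
  have hfin : Finite Spor.Th := Nat.finite_of_card_ne_zero (by rw [card_Th]; norm_num)
  refine spr_of_inner ?_ (good hT hR) KFacts.Th.Main.inner
  refine ⟨W wp, W (.g .c), fun hc => ?_⟩
  have h1 : (W wp * W (.g .c)) ^ 38 = 1 := by
    have hcc : Commute (W wp) (W (.g .c)) := hc
    rw [hcc.mul_pow, show (38 : ℕ) = 19 * 2 by norm_num, pow_mul, p19, one_pow, one_mul, mul_comm 19 2, pow_mul]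
    have h2 : W (.g .c) ^ 2 = 1 := by rw [← oc]; exact pow_orderOf_eq_one _
    rw [h2, one_pow]
  have h3 := orderOf_dvd_of_pow_eq_one h1
  rw [o31] at h3
  omega

/-- **S3938, the row `Th`.** -/
theorem spr_th_of (hT : Tops) (hR : Reps) {T : Type} [Group T] [Finite T] (h : Spor.IsoTh T) : H424.Spr.Spr T := by
  obtain ⟨e⟩ := h
  exact H424.Spr.Spr.congr e.symm (spr_model hT hR)

end Cfsg.Agent.H602.SprTh
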